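import Cfsg.Agent.H344.DP.PsuAbs
import Cfsg.Agent.H160.DP.Tv
import Cfsg.Agent.H666.BR.UCard

/-!
# S4247, the family `PSU_n(q)`, `n ≥ 4`, `q` odd

`psu_no_exact` : `PSU_n(q)` is not a product `P H` with `P` of odd order in the normaliser of a Sylow `p`-subgroup and
`H` a `p'`-group (`p` the odd characteristic).
-/

set_option autoImplicit false

namespace Cfsg.Agent.H344.DP

open Module Subgroup Matrix Cfsg Cfsg.Agent.H160.DP
open Cfsg.Agent.LieClassical.HermBasic Cfsg.Agent.LieClassical.HermSiegel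
open Cfsg.Agent.ClassicalGeometry.HermOrtho
open Cfsg.Agent.H646.BR.U (suL suL_apply uX TI_iff)

variable {F : Type*} [Field F] [Fintype F] {n q : ℕ}

/-- linear forms are represented by the hermitian form -/
theorem exists_rep (hF : Fintype.card F = q ^ 2) (f : (Fin n → F) →ₗ[F] F) :
    ∃ w : Fin n → F, ∀ v, f v = hermForm n F q v w := by
  classical
  refine ⟨fun i => (f (Pi.single i 1)) ^ q, fun v => ?_⟩
  rw [herm_def, LinearMap.pi_apply_eq_sum_univ f v]
  refine Finset.sum_congr rfl fun i _ => ?_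
  rw [pow_q_pow_q hF, smul_eq_mul]
  congr 2
  funext j
  simp [Pi.single_apply, eq_comm]

theorem mem_of_perp (hF : Fintype.card F = q ^ 2) {W : Submodule F (Fin n → F)} {v : Fin n → F}
    (h : ∀ w, (∀ x ∈ W, hermForm n F q x w = 0) → hermForm n F q v w = 0) : v ∈ W := by
  by_contra hv
  obtain ⟨f, hf, hf'⟩ := exists_fun hv
  obtain ⟨w, hw⟩ := exists_rep hF f
  have h1 := h w fun x hx => by rw [← hw, hf' x hx]
  rw [← hw, hf] at h1
  exact one_ne_zero h1

/-- a self-dual chain -/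
structure SD (q : ℕ) (C : ℕ → Submodule F (Fin n → F)) : Prop where
  mono : Monotone C
  zero : C 0 = ⊥
  perp : ∀ j ≤ 5, ∀ u, u ∈ C (5 - j) ↔ ∀ v ∈ C j, hermForm n F q u v = 0

variable {C : ℕ → Submodule F (Fin n → F)}

omit [Fintype F] in
theorem SD.iso (hC : SD q C) {j : ℕ} (hj : j ≤ 2) {x y : Fin n → F} (hx : x ∈ C j) (hy : y ∈ C j) :
    hermForm n F q x y = 0 :=
  (hC.perp j (by omega) x).1 (hC.mono (by omega) hx) y hy

theorem siegel_triv (hF : Fintype.card F = q ^ 2) (hC : SD q C) {j : ℕ} (hj : j ≤ 2) {y w : Fin n → F}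
    (hy : y ∈ C j) (hw : w ∈ C (5 - j)) {μ : F} (h : IsSiegel q y w μ) :
    siegel hF y w μ h ∈ triv (suL n F q) C := by
  have hfin : Finite (SU n F q) := inferInstance
  refine mem_triv (fun i => hC.mono (Nat.le_succ i)) (fun i v hv => ?_) hC.zero
  rw [suL_apply, act_siegel, add_assoc, add_sub_cancel_left]
  apply (C i).add_mem
  · by_cases h1 : i + 1 ≤ 5 - j
    · rw [(hC.perp j (by omega) v).1 (hC.mono h1 hv) y hy, zero_smul]
      exact (C i).zero_mem
    · exact (C i).smul_mem _ (hC.mono (by omega) hw)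
  · by_cases h1 : i + 1 ≤ j
    · have hv' := hC.mono h1 hv
      rw [hC.iso hj hv' hy, herm_eq_zero_swap hF ((hC.perp j (by omega) w).1 hw v hv'), mul_zero, sub_zero, zero_smul]
      exact (C i).zero_mem
    · exact (C i).smul_mem _ (hC.mono (by omega) hy)

theorem mem_of_triv (hF : Fintype.card F = q ^ 2) (hC : SD q C) {j : ℕ} (hj : j ≤ 2)
    {c : Submodule F (Fin n → F)} {y : Fin n → F} (hy : y ∈ C j) (hyc : y ∉ c) {v : Fin n → F}
    (hv : ∀ g ∈ triv (suL n F q) C, suL n F q g v - v ∈ c) : v ∈ C j := by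
  have hyy := hC.iso hj hy hy
  have hvy : hermForm n F q v y = 0 := by
    by_contra h0
    obtain ⟨μ, hμ0, hμ⟩ := exists_trace_zero_ne hF
    have hs : IsSiegel q y 0 μ := ⟨hyy, herm_zero_left y, by rw [herm_zero_left, hμ, add_zero]⟩
    have h1 := hv _ (siegel_triv hF hC hj hy (C (5 - j)).zero_mem hs)
    rw [suL_apply, act_siegel, smul_zero, add_zero, herm_zero_right hF, sub_zero, add_sub_cancel_left] at h1
    apply hyc
    have h2 := c.smul_mem (μ * hermForm n F q v y)⁻¹ h1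
    rwa [smul_smul, inv_mul_cancel₀ (mul_ne_zero hμ0 h0), one_smul] at h2
  apply mem_of_perp hF
  intro w hw
  by_contra h0
  have hw' : w ∈ C (5 - j) := (hC.perp j (by omega) w).2 fun x hx => herm_eq_zero_swap hF (hw x hx)
  obtain ⟨μ, hμ⟩ := exists_trace_eq hF (c := -hermForm n F q w w) (by rw [neg_pow_q hF, herm_self_pow hF])
  have hs : IsSiegel q y w μ := ⟨hyy, (hC.perp j (by omega) w).1 hw' y hy, by rw [hμ, neg_add_cancel]⟩
  have h1 := hv _ (siegel_triv hF hC hj hy hw' hs)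
  rw [suL_apply, act_siegel, hvy, zero_smul, mul_zero, zero_sub, add_zero, add_sub_cancel_left] at h1
  apply hyc
  have h2 := c.smul_mem (-hermForm n F q v w)⁻¹ h1
  rwa [smul_smul, inv_mul_cancel₀ (neg_ne_zero.2 h0), one_smul] at h2

/-- the number of totally isotropic lines is prime to `p` -/
theorem not_dvd_card_uX (hF : Fintype.card F = q ^ 2) {p : ℕ} [Fact p.Prime] [CharP F p] (hn : 4 ≤ n) :
    ¬ p ∣ Nat.card (uX hF n 2) := by
  intro hd
  have hpq : (p : ℤ) ∣ (q : ℤ) := by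
    obtain ⟨k, -, hk⟩ := FiniteField.card F p
    rw [hF] at hk
    have h1 : p ∣ q ^ 2 := by rw [hk]; exact dvd_pow_self p k.ne_zero
    exact_mod_cast (Fact.out : p.Prime).dvd_of_dvd_pow h1
  have h := Cfsg.Agent.H666.BR.card_uX_mul hF (n := n) (k := 2) (m := n - 4) (by omega)
  have hp : Prime (p : ℤ) := Nat.prime_iff_prime_int.1 Fact.out
  have h1 : (p : ℤ) ∣ ∏ i ∈ Finset.range (2 * 2), ((q : ℤ) ^ (n - 4 + i + 1) - (-1) ^ (n - 4 + i + 1)) := by
    rw [← h]
    exact Dvd.dvd.mul_right (by exact_mod_cast hd) _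
  obtain ⟨i, -, hi⟩ := (Prime.dvd_finsetProd_iff hp _).1 h1
  have h2 : (p : ℤ) ∣ (q : ℤ) ^ (n - 4 + i + 1) := dvd_pow hpq (Nat.succ_ne_zero _)
  have h3 := dvd_sub h2 hi
  rw [sub_sub_cancel] at h3
  have h4 : (p : ℤ) ∣ (-1) := hp.dvd_of_dvd_pow h3
  exact hp.not_isUnit (isUnit_of_dvd_unit h4 (isUnit_one.neg))

/-- transvections of a totally isotropic subspace -/
theorem exists_transv' (hF : Fintype.card F = q ^ 2) {L : Submodule F (Fin n → F)}
    (hL : ∀ x ∈ L, ∀ y ∈ L, hermForm n F q x y = 0) {x : Fin n → F} (hx : x ∈ L) (f : (Fin n → F) →ₗ[F] F)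
    (hf : f x = 0) : ∃ g : SU n F q, ∀ v ∈ L, suL n F q g v = v + f v • x := by
  obtain ⟨w, hw⟩ := exists_rep hF (-f)
  obtain ⟨μ, hμ⟩ := exists_trace_eq hF (c := -hermForm n F q w w) (by rw [neg_pow_q hF, herm_self_pow hF])
  have hs : IsSiegel q x w μ := ⟨hL x hx x hx, by
    apply herm_eq_zero_swap hF
    rw [← hw, LinearMap.neg_apply, hf, neg_zero], by rw [hμ, neg_add_cancel]⟩
  refine ⟨siegel hF x w μ hs, fun v hv => ?_⟩
  rw [suL_apply, act_siegel, hL v hv x hx, zero_smul, add_zero, mul_zero, zero_sub, ← hw, LinearMap.neg_apply, neg_neg]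

/-- `SL₂` is generated by the upper and lower unitriangular matrices (helper262) -/
theorem sl2_gen {F : Type*} [Field F] (H : Subgroup (L2 F))
    (hup : ∀ c : F, ∀ m : L2 F, m.1 = !![1, c; 0, 1] → m ∈ H)
    (hlow : ∀ c : F, ∀ m : L2 F, m.1 = !![1, 0; c, 1] → m ∈ H) : H = ⊤ := by
  classical
  have key : ∀ m : L2 F, m.1 1 0 ≠ 0 → m ∈ H := by
    intro m hm
    let U1 : L2 F := ⟨!![1, (m.1 0 0 - 1) / m.1 1 0; 0, 1], by simp [Matrix.det_fin_two]⟩
    let L : L2 F := ⟨!![1, 0; m.1 1 0, 1], by simp [Matrix.det_fin_two]⟩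
    let U2 : L2 F := ⟨!![1, (m.1 1 1 - 1) / m.1 1 0; 0, 1], by simp [Matrix.det_fin_two]⟩
    have hdet := det_two m
    have h1 : m = U1 * L * U2 := by
      apply Subtype.ext
      show m.1 = !![1, (m.1 0 0 - 1) / m.1 1 0; 0, 1] * !![1, 0; m.1 1 0, 1] *
        !![1, (m.1 1 1 - 1) / m.1 1 0; 0, 1]
      ext i j
      fin_cases i <;> fin_cases j
      · simp [Matrix.mul_apply, Fin.sum_univ_two]
        field_simp
        ring
      · simp [Matrix.mul_apply, Fin.sum_univ_two]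
        field_simp
        linear_combination (-1 : F) * hdet
      · simp [Matrix.mul_apply, Fin.sum_univ_two]
      · simp [Matrix.mul_apply, Fin.sum_univ_two]
        field_simp
        ring
    rw [h1]
    exact H.mul_mem (H.mul_mem (hup _ U1 rfl) (hlow _ L rfl)) (hup _ U2 rfl)
  rw [eq_top_iff]
  intro m _
  by_cases hm : m.1 1 0 = 0
  · let L : L2 F := ⟨!![1, 0; 1, 1], by simp [Matrix.det_fin_two]⟩
    have hdet := det_two m
    have h2 : (m * L).1 1 0 ≠ 0 := by
      have h3 : (m * L).1 1 0 = m.1 1 0 + m.1 1 1 := by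
        show (m.1 * (!![1, 0; 1, 1] : Matrix (Fin 2) (Fin 2) F)) 1 0 = _
        simp [Matrix.mul_apply, Fin.sum_univ_two]
      rw [h3, hm, zero_add]
      intro h4
      rw [hm, h4] at hdet
      simp at hdet
    have h4 := key _ h2
    have h5 : m = (m * L) * L⁻¹ := by group
    rw [h5]
    exact H.mul_mem h4 (H.inv_mem (hlow _ L rfl))
  · exact key m hm

/-- `SL(L)` is induced on a totally isotropic plane -/
theorem exists_sl (hF : Fintype.card F = q ^ 2) {L : Submodule F (Fin n → F)}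
    (hL : ∀ x ∈ L, ∀ y ∈ L, hermForm n F q x y = 0) (φ : (Fin 2 → F) →ₗ[F] (Fin n → F))
    (hφ : Function.Injective φ) (hφL : ∀ v, φ v ∈ L) (A : L2 F) :
    ∃ g : SU n F q, ∀ v, suL n F q g (φ v) = φ (A.1 *ᵥ v) := by
  let T : Subgroup (L2 F) :=
    { carrier := {A | ∃ g : SU n F q, ∀ v, suL n F q g (φ v) = φ (A.1 *ᵥ v)}
      one_mem' := ⟨1, fun v => by
        rw [map_one]
        change φ v = φ ((1 : Matrix (Fin 2) (Fin 2) F) *ᵥ v)
        rw [Matrix.one_mulVec]⟩
      mul_mem' := by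
        rintro A B ⟨g, h⟩ ⟨g', h'⟩
        refine ⟨g * g', fun v => ?_⟩
        rw [map_mul, LinearEquiv.mul_apply, h', h, Matrix.mulVec_mulVec]
        rfl
      inv_mem' := by
        rintro A ⟨g, h⟩
        refine ⟨g⁻¹, fun v => ?_⟩
        have h1 := h ((A⁻¹).1 *ᵥ v)
        rw [mulVec_inv] at h1
        rw [← h1, ← LinearEquiv.mul_apply, ← map_mul, inv_mul_cancel, map_one]
        rfl }
  -- a linear form with given values
  have hform : ∀ a b : F, ∃ f : (Fin n → F) →ₗ[F] F, ∀ v, f (φ v) = a * v 0 + b * v 1 := by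
    intro a b
    obtain ⟨ψ, hψ⟩ := φ.exists_leftInverse_of_injective (LinearMap.ker_eq_bot.2 hφ)
    have hψ' : ∀ v, ψ (φ v) = v := fun v => LinearMap.congr_fun hψ v
    refine ⟨(a • LinearMap.proj 0 + b • LinearMap.proj 1) ∘ₗ ψ, fun v => ?_⟩
    rw [LinearMap.comp_apply, hψ']
    rfl
  have hT : T = ⊤ := by
    refine sl2_gen T (fun c A hA => ?_) (fun c A hA => ?_)
    · obtain ⟨f, hf⟩ := hform 0 c
      obtain ⟨g, hg⟩ := exists_transv' hF hL (hφL (Pi.single 0 1)) f (by rw [hf]; simp)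
      refine ⟨g, fun v => ?_⟩
      rw [hg _ (hφL v), hf, ← map_smul, ← map_add, hA]
      congr 1
      ext i
      fin_cases i <;> simp [Matrix.mulVec, dotProduct, Fin.sum_univ_two]
    · obtain ⟨f, hf⟩ := hform c 0
      obtain ⟨g, hg⟩ := exists_transv' hF hL (hφL (Pi.single 1 1)) f (by rw [hf]; simp)
      refine ⟨g, fun v => ?_⟩
      rw [hg _ (hφL v), hf, ← map_smul, ← map_add, hA]
      congr 1
      ext i
      fin_cases i <;> simp [Matrix.mulVec, dotProduct, Fin.sum_univ_two, add_comm]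
  have h : A ∈ T := hT ▸ mem_top A
  exact h

theorem psu_no_exact (hF : Fintype.card F = q ^ 2) {p : ℕ} [Fact p.Prime] [CharP F p] (hp2 : p ≠ 2) (hn : 4 ≤ n)
    (P H : Subgroup (PSU n F q)) (hPH : ∀ g, ∃ a ∈ P, ∃ b ∈ H, g = a * b) (T : Sylow p (PSU n F q))
    (hT : P ≤ normalizer ((T : Subgroup (PSU n F q)) : Set (PSU n F q))) (hodd : Odd (Nat.card P))
    (hH : ¬ p ∣ Nat.card H) : False := by
  classical
  have hfin : Finite (SU n F q) := inferInstance
  let f : SU n F q →* PSU n F q := QuotientGroup.mk' (Subgroup.center (SU n F q))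
  have hf : Function.Surjective f := QuotientGroup.mk'_surjective _
  have hfk : ∀ z, f z = 1 ↔ z ∈ Subgroup.center (SU n F q) := fun z => by
    rw [← QuotientGroup.eq_one_iff]
    rfl
  have hker : ∀ z, f z = 1 → ∀ x, z * x = x * z := fun z hz x =>
    (Subgroup.mem_center_iff.mp ((hfk z).mp hz) x).symm
  have hkp : ¬ p ∣ Nat.card f.ker := by
    intro h
    obtain ⟨z, hz⟩ := exists_prime_orderOf_dvd_card' p h
    have h1 : (z : SU n F q) ^ p ^ 1 = 1 := by
      rw [pow_one, ← Subgroup.coe_pow, ← hz, pow_orderOf_eq_one]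
      rfl
    have h2 := Cfsg.Agent.ClassicalGeometry.PSUAutBasic.eq_one_of_center_of_pow hF (by omega) ((hfk z).mp z.2) h1
    have h3 : z = 1 := Subtype.ext h2
    rw [h3, orderOf_one] at hz
    exact (Fact.out : p.Prime).one_lt.ne hz
  obtain ⟨P', H', U, h1, h2, h3, hP', -, -⟩ := exists_lift f hf hker hkp hPH hH T hT
  have hU : IsPGroup p (U : Subgroup (SU n F q)) := U.isPGroup'
  have hmax : ∀ X : Subgroup (SU n F q), IsPGroup p X → (U : Subgroup (SU n F q)) ≤ X → X = U :=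
    fun X hX hUX => U.is_maximal' hX hUX
  -- the fixed line
  obtain ⟨L, hL⟩ := hU.nonempty_fixed_point_of_prime_not_dvd_card (uX hF n 2) (not_dvd_card_uX hF hn)
  obtain ⟨L0, hL0d⟩ : ∃ L0 : Submodule F (Fin n → F), L0 = L.1 := ⟨_, rfl⟩
  have hL0 : finrank F L0 = 2 := by rw [hL0d]; exact L.2.2
  have hTI : ∀ x ∈ L0, ∀ y ∈ L0, hermForm n F q x y = 0 := by rw [hL0d]; exact (TI_iff hF).1 L.2.1
  have hUL : ∀ u ∈ (U : Subgroup (SU n F q)), ∀ v ∈ L0, suL n F q u v ∈ L0 := by
    intro u hu v hv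
    have e1 := congrArg Subtype.val (hL ⟨u, hu⟩)
    have e2 : Cfsg.Agent.H646.BR.mv (suL n F q) u L.1 = L.1 := e1
    rw [hL0d] at hv ⊢
    rw [← e2]
    exact ⟨v, hv, rfl⟩
  have htop : ∀ u ∈ (U : Subgroup (SU n F q)), ∀ v ∈ (⊤ : Submodule F (Fin n → F)),
      suL n F q u v ∈ (⊤ : Submodule F (Fin n → F)) := fun _ _ _ _ => Submodule.mem_top
  have hbot : ∀ u ∈ (U : Subgroup (SU n F q)), ∀ v ∈ (⊥ : Submodule F (Fin n → F)),
      suL n F q u v ∈ (⊥ : Submodule F (Fin n → F)) := by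
    intro u _ v hv
    rw [Submodule.mem_bot] at hv ⊢
    rw [hv, map_zero]
  obtain ⟨c0, -, hcL, hc0, hUc⟩ := exists_succ (ρ := suL n F q) hU (c := ⊥) (M := L0) (by
    rw [bot_lt_iff_ne_bot]
    rintro rfl
    rw [finrank_bot] at hL0
    omega) hbot hUL
  rw [finrank_bot, zero_add] at hc0
  have hperp : ∀ c : Submodule F (Fin n → F), (∀ u ∈ (U : Subgroup (SU n F q)), ∀ v ∈ c, suL n F q u v ∈ c) →
      ∀ u ∈ (U : Subgroup (SU n F q)), ∀ v ∈ hermPerp q (c : Set (Fin n → F)),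
        suL n F q u v ∈ hermPerp q (c : Set (Fin n → F)) := by
    intro c hc u hu v hv
    rw [mem_hermPerp] at hv ⊢
    intro x hx
    rw [suL_apply, herm_act_left]
    exact hv _ (hc _ (U.inv_mem hu) x hx)
  -- the chain
  let C : ℕ → Submodule F (Fin n → F) := fun i =>
    match i with
    | 0 => ⊥
    | 1 => c0
    | 2 => L0
    | 3 => hermPerp q (L0 : Set (Fin n → F))
    | 4 => hermPerp q (c0 : Set (Fin n → F))
    | _ => ⊤
  have hdp : ∀ W : Submodule F (Fin n → F), ∀ u, u ∈ W ↔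
      ∀ v ∈ hermPerp q (W : Set (Fin n → F)), hermForm n F q u v = 0 := by
    intro W u
    refine ⟨fun hu v hv => herm_eq_zero_swap hF (mem_hermPerp.1 hv u hu), fun h => mem_of_perp hF fun w hw => ?_⟩
    exact h w (mem_hermPerp.2 fun x hx => herm_eq_zero_swap hF (hw x hx))
  have hC : SD q C := by
    refine ⟨monotone_nat_of_le_succ fun i => ?_, rfl, fun j hj u => ?_⟩
    · match i with
      | 0 => exact bot_le
      | 1 => exact hcL
      | 2 => exact fun x hx => mem_hermPerp.2 fun y hy => hTI x hx y hy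
      | 3 => exact fun x hx => mem_hermPerp.2 fun y hy => mem_hermPerp.1 hx y (hcL hy)
      | 4 => exact le_top
      | (n + 5) => exact le_top
    · match j with
      | 0 =>
        refine ⟨fun _ v hv => ?_, fun _ => Submodule.mem_top⟩
        rw [(Submodule.mem_bot F).1 hv, herm_zero_right hF]
      | 1 => exact mem_hermPerp
      | 2 => exact mem_hermPerp
      | 3 => exact hdp L0 u
      | 4 => exact hdp c0 u
      | 5 =>
        refine ⟨fun hu v _ => ?_, fun h => ?_⟩
        · rw [(Submodule.mem_bot F).1 hu, herm_zero_left]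
        · exact (Submodule.mem_bot F).2 (herm_nondeg hF fun v => h v Submodule.mem_top)
      | (n + 6) => omega
  have hUC : ∀ u ∈ (U : Subgroup (SU n F q)), ∀ i, ∀ v ∈ C i, suL n F q u v ∈ C i := by
    intro u hu i
    match i with
    | 0 => exact hbot u hu
    | 1 => exact hUc u hu
    | 2 => exact hUL u hu
    | 3 => exact hperp _ hUL u hu
    | 4 => exact hperp _ hUc u hu
    | (n + 5) => exact htop u hu
  have hex : ∀ c L : Submodule F (Fin n → F), finrank F c < finrank F L → ∃ y ∈ L, y ∉ c := by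
    intro c L h
    by_contra hcon
    push Not at hcon
    have h1 : finrank F L ≤ finrank F c := Submodule.finrank_mono fun v hv => hcon v hv
    omega
  have q' : ∀ j ≤ 2, ∀ c : Submodule F (Fin n → F), finrank F c < finrank F (C j) →
      ∀ v, (∀ g ∈ triv (suL n F q) C, suL n F q g v - v ∈ c) → v ∈ C j := by
    intro j hj c hc v hv
    obtain ⟨y, hy, hyc⟩ := hex c (C j) hc
    exact mem_of_triv hF hC hj hy hyc hv
  have hρ : Function.Injective (suL n F q) := by
    intro a b hab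
    apply ext_act
    intro v
    rw [← suL_apply, ← suL_apply, hab]
  have f1 : ∀ a ∈ P', ∀ v ∈ c0, suL n F q a v ∈ c0 := by
    refine flag_fixed hρ hU hmax h3 (C := C) (n := 5) rfl rfl hUC (c := ⊥) (fun a _ v hv => ?_)
      (fun u hu => hbot u hu) hUc (exists_gen bot_le (by rw [hc0, finrank_bot]))
      (fun v hv => q' 1 (by omega) ⊥ (by rw [finrank_bot]; change 0 < finrank F c0; omega) v hv)
    rw [Submodule.mem_bot] at hv ⊢
    rw [hv, map_zero]
  have f2 : ∀ a ∈ P', ∀ v ∈ L0, suL n F q a v ∈ L0 :=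
    flag_fixed hρ hU hmax h3 (C := C) (n := 5) rfl rfl hUC f1 hUc hUL (exists_gen hcL (by rw [hc0, hL0]))
      (q' 2 le_rfl c0 (by change _ < finrank F L0; omega))
  -- a basis of the line
  obtain ⟨b0, hb0, hb0n⟩ := hex ⊥ c0 (by rw [finrank_bot, hc0]; omega)
  have hb00 : b0 ≠ 0 := fun h => hb0n ((Submodule.mem_bot F).2 h)
  have hcs : c0 = F ∙ b0 := by
    symm
    apply Submodule.eq_of_le_of_finrank_eq
    · rw [Submodule.span_singleton_le_iff_mem]; exact hb0
    · rw [finrank_span_singleton hb00, hc0]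
  obtain ⟨b1, hb1, hb1c⟩ := hex c0 L0 (by omega)
  let φ : (Fin 2 → F) →ₗ[F] (Fin n → F) :=
    (LinearMap.proj 0 : (Fin 2 → F) →ₗ[F] F).smulRight b0 + (LinearMap.proj 1 : (Fin 2 → F) →ₗ[F] F).smulRight b1
  have hφa : ∀ v, φ v = v 0 • b0 + v 1 • b1 := fun v => rfl
  have hφL : ∀ v, φ v ∈ L0 := fun v => by
    rw [hφa]
    exact L0.add_mem (L0.smul_mem _ (hcL hb0)) (L0.smul_mem _ hb1)
  have hφi : Function.Injective φ := by
    rw [injective_iff_map_eq_zero]
    intro v hv
    rw [hφa] at hv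
    have e1 : v 1 = 0 := by
      by_contra h0
      apply hb1c
      have e2 : v 1 • b1 ∈ c0 := by
        have e3 : v 1 • b1 = -(v 0 • b0) := by
          rw [eq_neg_iff_add_eq_zero, add_comm]; exact hv
        rw [e3]
        exact c0.neg_mem (c0.smul_mem _ hb0)
      have e4 := c0.smul_mem (v 1)⁻¹ e2
      rwa [smul_smul, inv_mul_cancel₀ h0, one_smul] at e4
    rw [e1, zero_smul, add_zero, smul_eq_zero] at hv
    ext i
    fin_cases i
    · exact hv.resolve_right hb00
    · exact e1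
  have hrange : LinearMap.range φ = L0 := by
    apply Submodule.eq_of_le_of_finrank_eq
    · rintro _ ⟨v, rfl⟩
      exact hφL v
    · rw [LinearMap.finrank_range_of_inj hφi, Module.finrank_fin_fun, hL0]
  have hqodd : Odd q := by
    obtain ⟨k, -, hk⟩ := FiniteField.card F p
    rw [hF] at hk
    have e1 : Odd (p ^ (k : ℕ)) := ((Fact.out : p.Prime).odd_of_ne_two hp2).pow
    rw [← hk] at e1
    exact Nat.Odd.of_mul_left (by rwa [pow_two] at e1)
  refine abstract_no (p := p) (by rw [hF]; exact Nat.eight_dvd_sq_sub_one_of_odd hqodd) (suL n F q) φ hφi P' H' h1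
    (exists_sl hF hTI φ hφi hφL) (fun a ha v => by rw [hrange]; exact f2 a ha _ (hφL v)) (fun a ha => ?_) hodd
    (fun a ha => ?_) (m' := Nat.card H') (fun b hb => ?_) h2
  · have e1 : φ (Pi.single 0 1) = b0 := by rw [hφa]; simp
    have e2 := f1 a ha b0 hb0
    rw [hcs, Submodule.mem_span_singleton] at e2
    obtain ⟨t, ht⟩ := e2
    exact ⟨t, by rw [e1, ht]⟩
  · rw [hP', mem_comap] at ha
    have e1 : (f a) ^ Nat.card P = 1 := by
      have := pow_card_eq_one' (x := (⟨f a, ha⟩ : P))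
      exact congrArg Subtype.val this
    rw [← map_pow, hfk] at e1
    obtain ⟨c, -, -, hc⟩ := Cfsg.Agent.ClassicalGeometry.PSUAutBasic.exists_scalar_of_mem_center hF (by omega) e1
    exact ⟨c, hc⟩
  · have := pow_card_eq_one' (x := (⟨b, hb⟩ : H'))
    exact congrArg Subtype.val this

end Cfsg.Agent.H344.DP
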