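import Cfsg.Agent.H344.DP.PslBound

/-!
# The abstract argument (for S4247, `PSU_n(q)`)

`G = P H` acts linearly on `V`, `φ : F² → V` is injective, `SL₂(F)` is induced on the image `L` of `φ`, `P` fixes `L` and
a point of `L`, an odd power of `P` consists of scalars, `H` is a `p'`-group; `8 ∣ |F| - 1`: contradiction.
-/

set_option autoImplicit false

open Matrix

namespace Cfsg.Agent.H344.DP

open Subgroup Cfsg.Agent.ClassicalGeometry.PSL2Basic

theorem not_dvd_card_of_pow {Γ : Type*} [Group Γ] [Finite Γ] {m p : ℕ} [Fact p.Prime] (h : ∀ x : Γ, x ^ m = 1)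
    (hp : ¬ p ∣ m) : ¬ p ∣ Nat.card Γ := by
  intro hd
  obtain ⟨x, hx⟩ := exists_prime_orderOf_dvd_card' p hd
  apply hp
  rw [← hx]
  exact orderOf_dvd_of_pow_eq_one (h x)

section img

variable {F V : Type*} [Field F] [AddCommGroup V] [Module F V] {G : Type*} [Group G]

theorem mulVec_inv (A : L2 F) (v : Fin 2 → F) : A.1 *ᵥ ((A⁻¹).1 *ᵥ v) = v := by
  have h : A.1 * (A⁻¹).1 = 1 := by
    have := congrArg Subtype.val (mul_inv_cancel A)
    exact this
  rw [Matrix.mulVec_mulVec, h, Matrix.one_mulVec]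

/-- the elements of `SL₂(F)` induced by `X` up to scalars -/
def img (ρ : G →* (V ≃ₗ[F] V)) (φ : (Fin 2 → F) →ₗ[F] V) (X : Subgroup G) : Subgroup (L2 F) where
  carrier := {A | ∃ g ∈ X, ∃ c : F, c ≠ 0 ∧ ∀ v, ρ g (φ v) = c • φ (A.1 *ᵥ v)}
  one_mem' := ⟨1, X.one_mem, 1, one_ne_zero, fun v => by
    rw [map_one, one_smul]
    change φ v = φ ((1 : Matrix (Fin 2) (Fin 2) F) *ᵥ v)
    rw [Matrix.one_mulVec]⟩
  mul_mem' := by
    rintro A B ⟨g, hg, c, hc, h⟩ ⟨g', hg', c', hc', h'⟩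
    refine ⟨g * g', X.mul_mem hg hg', c' * c, mul_ne_zero hc' hc, fun v => ?_⟩
    rw [map_mul, LinearEquiv.mul_apply, h', map_smul, h, smul_smul, Matrix.mulVec_mulVec]
    rfl
  inv_mem' := by
    rintro A ⟨g, hg, c, hc, h⟩
    refine ⟨g⁻¹, X.inv_mem hg, c⁻¹, inv_ne_zero hc, fun v => ?_⟩
    have h1 := h ((A⁻¹).1 *ᵥ v)
    rw [mulVec_inv] at h1
    have h3 : φ v = c⁻¹ • ρ g (φ ((A⁻¹).1 *ᵥ v)) := by rw [h1, smul_smul, inv_mul_cancel₀ hc, one_smul]
    rw [h3, map_smul, ← LinearEquiv.mul_apply, ← map_mul, inv_mul_cancel, map_one]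
    rfl

variable {ρ : G →* (V ≃ₗ[F] V)} {φ : (Fin 2 → F) →ₗ[F] V} {X : Subgroup G}

theorem mem_img {A : L2 F} : A ∈ img ρ φ X ↔ ∃ g ∈ X, ∃ c : F, c ≠ 0 ∧ ∀ v, ρ g (φ v) = c • φ (A.1 *ᵥ v) := Iff.rfl

theorem neg_mem_img : -1 ∈ img ρ φ X := by
  refine ⟨1, X.one_mem, -1, neg_ne_zero.2 one_ne_zero, fun v => ?_⟩
  rw [map_one, Matrix.SpecialLinearGroup.coe_neg]
  change φ v = (-1 : F) • φ ((-(1 : Matrix (Fin 2) (Fin 2) F)) *ᵥ v)
  rw [Matrix.neg_mulVec, Matrix.one_mulVec, map_neg, smul_neg, neg_smul, one_smul, neg_neg]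

/-- a scalar element of `SL₂(F)` -/
theorem mem_center_of_mulVec {A : L2 F} {r : F} (h : ∀ v, A.1 *ᵥ v = r • v) : A ∈ Subgroup.center (L2 F) := by
  have e : A.1 = r • (1 : Matrix (Fin 2) (Fin 2) F) := by
    apply Matrix.ext_of_mulVec_single
    intro i
    rw [h, Matrix.smul_mulVec, Matrix.one_mulVec]
  rw [Subgroup.mem_center_iff]
  intro B
  apply Subtype.ext
  change B.1 * A.1 = A.1 * B.1
  rw [e, Matrix.mul_smul, Matrix.smul_mul, Matrix.mul_one, Matrix.one_mul]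

theorem pow_img (hφ : Function.Injective φ) {m : ℕ} (hm : ∀ g ∈ X, ∃ l : F, ∀ v, ρ (g ^ m) v = l • v) {A : L2 F}
    (hA : A ∈ img ρ φ X) : A ^ m ∈ Subgroup.center (L2 F) := by
  obtain ⟨g, hg, c, hc, h⟩ := hA
  obtain ⟨l, hl⟩ := hm g hg
  have hp : ∀ k : ℕ, ∀ v, ρ (g ^ k) (φ v) = c ^ k • φ ((A ^ k).1 *ᵥ v) := by
    intro k
    induction k with
    | zero =>
      intro v
      rw [pow_zero, pow_zero, pow_zero, map_one, one_smul]
      change φ v = φ ((1 : Matrix (Fin 2) (Fin 2) F) *ᵥ v)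
      rw [Matrix.one_mulVec]
    | succ k ih =>
      intro v
      rw [pow_succ, map_mul, LinearEquiv.mul_apply, h, map_smul, ih, smul_smul, Matrix.mulVec_mulVec, pow_succ' c]
      rfl
  refine mem_center_of_mulVec (r := (c ^ m)⁻¹ * l) fun v => hφ ?_
  have h1 := hp m v
  rw [hl] at h1
  rw [map_smul, mul_smul, h1, smul_smul, inv_mul_cancel₀ (pow_ne_zero m hc), one_smul]

theorem not_dvd_img [Finite F] (hφ : Function.Injective φ) {m p : ℕ} [Fact p.Prime]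
    (hm : ∀ g ∈ X, ∃ l : F, ∀ v, ρ (g ^ m) v = l • v) (hp : ¬ p ∣ m) :
    ¬ p ∣ Nat.card ((img ρ φ X).map (pr F)) := by
  have hfinP : Finite (P2 F) := Finite.of_surjective _ (pr_surjective F)
  refine not_dvd_card_of_pow (m := m) ?_ hp
  rintro ⟨_, A, hA, rfl⟩
  apply Subtype.ext
  change (pr F A) ^ m = 1
  rw [← map_pow]
  exact (QuotientGroup.eq_one_iff _).2 (pow_img hφ hm hA)

end img

/-- **The abstract argument** -/
theorem abstract_no {F V : Type*} [Field F] [Fintype F] [AddCommGroup V] [Module F V] {G : Type*} [Group G]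
    {p : ℕ} [Fact p.Prime] [CharP F p] (h8 : 8 ∣ Fintype.card F - 1)
    (ρ : G →* (V ≃ₗ[F] V)) (φ : (Fin 2 → F) →ₗ[F] V) (hφ : Function.Injective φ) (P H : Subgroup G)
    (hPH : ∀ g : G, ∃ a ∈ P, ∃ b ∈ H, g = a * b)
    (hsl : ∀ A : L2 F, ∃ g : G, ∀ v, ρ g (φ v) = φ (A.1 *ᵥ v))
    (hPL : ∀ a ∈ P, ∀ v, ρ a (φ v) ∈ LinearMap.range φ)
    (hPc : ∀ a ∈ P, ∃ t : F, ρ a (φ (Pi.single 0 1)) = t • φ (Pi.single 0 1))
    {m m' : ℕ} (hm : Odd m) (hPm : ∀ a ∈ P, ∃ l : F, ∀ v, ρ (a ^ m) v = l • v)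
    (hHm : ∀ b ∈ H, b ^ m' = 1) (hm' : ¬ p ∣ m') : False := by
  have h2 : Fact (Nat.Prime 2) := ⟨Nat.prime_two⟩
  refine no_fact (p := p) h8 (A := img ρ φ P) (D := img ρ φ H) ?_ neg_mem_img ?_ ?_ ?_
  · -- upper triangular
    rintro A ⟨a, ha, c, hc, h⟩
    obtain ⟨t, ht⟩ := hPc a ha
    rw [h] at ht
    have h1 : A.1 *ᵥ (Pi.single 0 1) = (c⁻¹ * t) • (Pi.single 0 1 : Fin 2 → F) := by
      apply hφ
      rw [map_smul, mul_smul, ← ht, smul_smul, inv_mul_cancel₀ hc, one_smul]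
    have h3 := congrFun h1 1
    rw [Matrix.mulVec_single_one] at h3
    rw [mem_borel]
    simpa using h3
  · -- the product
    intro x
    obtain ⟨g, hg⟩ := hsl x
    obtain ⟨a, ha, b, hb, rfl⟩ := hPH g
    let φe : (Fin 2 → F) ≃ₗ[F] LinearMap.range φ := LinearEquiv.ofInjective φ hφ
    let ma : (Fin 2 → F) →ₗ[F] (Fin 2 → F) :=
      φe.symm.toLinearMap ∘ₗ (((ρ a : V ≃ₗ[F] V) : V →ₗ[F] V) ∘ₗ φ).codRestrict (LinearMap.range φ) (hPL a ha)
    have hma : ∀ v, φ (ma v) = ρ a (φ v) := by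
      intro v
      have h1 : φe (ma v) = (((ρ a : V ≃ₗ[F] V) : V →ₗ[F] V) ∘ₗ φ).codRestrict (LinearMap.range φ) (hPL a ha) v :=
        φe.apply_symm_apply _
      exact congrArg Subtype.val h1
    let M : Matrix (Fin 2) (Fin 2) F := LinearMap.toMatrix' ma
    have hM : ∀ v, φ (M *ᵥ v) = ρ a (φ v) := by
      intro v
      rw [← hma]
      congr 1
      exact LinearMap.toMatrix'_mulVec _ _
    have hMp : ∀ k : ℕ, ∀ v, φ ((M ^ k) *ᵥ v) = ρ (a ^ k) (φ v) := by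
      intro k
      induction k with
      | zero => intro v; rw [pow_zero, pow_zero, map_one, Matrix.one_mulVec]; rfl
      | succ k ih =>
        intro v
        rw [pow_succ, pow_succ, map_mul, LinearEquiv.mul_apply, ← hM, ← ih, Matrix.mulVec_mulVec]
    obtain ⟨l, hl⟩ := hPm a ha
    have hMm : M ^ m = l • (1 : Matrix (Fin 2) (Fin 2) F) := by
      apply Matrix.ext_of_mulVec_single
      intro i
      apply hφ
      rw [hMp, hl, Matrix.smul_mulVec, Matrix.one_mulVec, map_smul]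
    have hl0 : l ≠ 0 := by
      rintro rfl
      have h1 := hl (φ (Pi.single 0 1))
      rw [zero_smul] at h1
      have h3 := (ρ (a ^ m)).injective (h1.trans (map_zero _).symm)
      have h4 := congrFun (hφ (h3.trans (map_zero φ).symm)) 0
      simp at h4
    have hdet : M.det ^ m = l ^ 2 := by
      rw [← Matrix.det_pow, hMm, Matrix.det_smul, Matrix.det_one, mul_one, Fintype.card_fin]
    obtain ⟨j, hj⟩ := hm
    have hd0 : M.det ≠ 0 := by
      intro h0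
      rw [h0, zero_pow (by omega)] at hdet
      exact pow_ne_zero 2 hl0 hdet.symm
    obtain ⟨s, hs⟩ : ∃ s : F, s = l / M.det ^ j := ⟨_, rfl⟩
    have hs2 : s * s = M.det := by
      rw [hs, div_mul_div_comm, ← pow_two l, ← hdet, hj, div_eq_iff (mul_ne_zero (pow_ne_zero _ hd0) (pow_ne_zero _ hd0))]
      ring
    have hs0 : s ≠ 0 := by
      rintro rfl
      rw [zero_mul] at hs2
      exact hd0 hs2.symm
    let A : L2 F := ⟨s⁻¹ • M, by
      rw [Matrix.det_smul, Fintype.card_fin, ← hs2]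
      field_simp⟩
    have hA : ∀ v, ρ a (φ v) = s • φ (A.1 *ᵥ v) := by
      intro v
      change _ = s • φ ((s⁻¹ • M) *ᵥ v)
      rw [Matrix.smul_mulVec, map_smul, smul_smul, mul_inv_cancel₀ hs0, one_smul, hM]
    refine ⟨A, ⟨a, ha, s, hs0, hA⟩, A⁻¹ * x, ⟨b, hb, s⁻¹, inv_ne_zero hs0, fun v => ?_⟩, by group⟩
    have h1 := hg v
    rw [map_mul, LinearEquiv.mul_apply] at h1
    apply (ρ a).injective
    rw [h1, map_smul, hA, smul_smul, inv_mul_cancel₀ hs0, one_smul]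
    change _ = φ (A.1 *ᵥ (((A⁻¹).1 * x.1) *ᵥ v))
    rw [← Matrix.mulVec_mulVec, mulVec_inv]
  · rw [← Nat.not_even_iff_odd, even_iff_two_dvd]
    exact not_dvd_img hφ hPm (fun h => (Nat.not_even_iff_odd.2 hm) (even_iff_two_dvd.2 h))
  · refine not_dvd_img hφ (m := m') (fun g hg => ⟨1, fun v => ?_⟩) hm'
    rw [hHm g hg, map_one, one_smul]
    rfl

end Cfsg.Agent.H344.DP
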